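import Cfsg.Agent.H308.CA.Stmts
import Cfsg.Agent.ClassicalGeometry.HermOrthonormal

/-!
# S3852, CA5: hermitian forms over an extension field (helper261)

`E ⊆ K` finite fields with involution, `f : K → M_ι(E)` a star homomorphism: the centralizer of the image of `f` is
isomorphic to `M_m(K)`, as a star ring.
-/

set_option autoImplicit false
set_option linter.unusedSectionVars false

namespace Cfsg.Agent.H261.CA

open Matrix Cfsg.Agent.H308.CA

section core

variable {ι : Type} [Fintype ι] [DecidableEq ι] {E K : Type} [Field E] [Field K] [Algebra E K]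

/-- `ι → E` as a module over `K` -/
def VV (_ : K →ₐ[E] Matrix ι ι E) : Type := ι → E

variable (f : K →ₐ[E] Matrix ι ι E)

instance : AddCommGroup (VV f) := inferInstanceAs (AddCommGroup (ι → E))

instance : Module E (VV f) := inferInstanceAs (Module E (ι → E))

instance [Finite E] : Finite (VV f) := inferInstanceAs (Finite (ι → E))

instance : FiniteDimensional E (VV f) := inferInstanceAs (FiniteDimensional E (ι → E))

theorem sm_one (v : ι → E) : f 1 *ᵥ v = v := by rw [map_one, one_mulVec]

theorem sm_mul (a b : K) (v : ι → E) : f (a * b) *ᵥ v = f a *ᵥ (f b *ᵥ v) := by rw [map_mul, mulVec_mulVec]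

theorem sm_add (a b : K) (v : ι → E) : f (a + b) *ᵥ v = f a *ᵥ v + f b *ᵥ v := by rw [map_add, add_mulVec]

theorem sm_zero (v : ι → E) : f 0 *ᵥ v = 0 := by rw [map_zero, zero_mulVec]

theorem sm_smul (e : E) (a : K) (v : ι → E) : f (e • a) *ᵥ v = e • (f a *ᵥ v) := by rw [map_smul, smul_mulVec]

instance : Module K (VV f) where
  smul k v := f k *ᵥ v
  one_smul := sm_one f
  mul_smul := sm_mul f
  smul_zero a := mulVec_zero (f a)
  smul_add a v w := mulVec_add (f a) v w
  add_smul := sm_add f
  zero_smul := sm_zero f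

theorem ksmul (k : K) (v : VV f) : (k • v : VV f) = f k *ᵥ v := rfl

instance : IsScalarTower E K (VV f) := ⟨sm_smul f⟩

theorem mat_ext {R : Type} [CommRing R] {A B : Matrix ι ι R} (h : ∀ v, A *ᵥ v = B *ᵥ v) : A = B :=
  Matrix.toLin'.injective (LinearMap.ext h)

section Phi

variable {m : ℕ} (T : (Fin m → K) ≃ₗ[E] (ι → E))

/-- transport of matrices by a linear map -/
noncomputable def phi (P : Matrix (Fin m) (Fin m) K) : Matrix ι ι E :=
  LinearMap.toMatrix' (T.toLinearMap ∘ₗ (P.mulVecLin.restrictScalars E) ∘ₗ T.symm.toLinearMap)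

theorem phi_mulVec (P : Matrix (Fin m) (Fin m) K) (a : Fin m → K) : phi T P *ᵥ T a = T (P *ᵥ a) := by
  rw [phi, LinearMap.toMatrix'_mulVec]
  simp

theorem eq_of_T {A B : Matrix ι ι E} (h : ∀ a, A *ᵥ T a = B *ᵥ T a) : A = B :=
  mat_ext fun v => by
    have := h (T.symm v)
    rwa [T.apply_symm_apply] at this

/-- transport of matrices as a ring homomorphism -/
noncomputable def Phi : Matrix (Fin m) (Fin m) K →+* Matrix ι ι E where
  toFun := phi T
  map_one' := eq_of_T T fun a => by rw [phi_mulVec, one_mulVec, one_mulVec]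
  map_mul' P Q := eq_of_T T fun a => by rw [phi_mulVec, ← mulVec_mulVec, ← mulVec_mulVec, phi_mulVec, phi_mulVec]
  map_zero' := eq_of_T T fun a => by rw [phi_mulVec, zero_mulVec, zero_mulVec, map_zero]
  map_add' P Q := eq_of_T T fun a => by rw [phi_mulVec, add_mulVec, add_mulVec, phi_mulVec, phi_mulVec, map_add]

theorem Phi_mulVec (P : Matrix (Fin m) (Fin m) K) (a : Fin m → K) : Phi T P *ᵥ T a = T (P *ᵥ a) := phi_mulVec T P a

theorem Phi_injective : Function.Injective (Phi T) := by
  intro P Q h
  refine mat_ext fun a => T.injective ?_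
  rw [← Phi_mulVec, ← Phi_mulVec, h]

theorem Phi_det (P : Matrix (Fin m) (Fin m) K) : (Phi T P).det = Algebra.norm E P.det := by
  have h1 : (Phi T P).det = LinearMap.det (T.toLinearMap ∘ₗ (P.mulVecLin.restrictScalars E) ∘ₗ T.symm.toLinearMap) := by
    rw [← LinearMap.det_toMatrix']
    rfl
  rw [h1, LinearMap.det_conj, LinearMap.det_restrictScalars, ← Matrix.toLin'_apply', LinearMap.det_toLin']

end Phi

end core

section form

variable {ι : Type} [Fintype ι] [DecidableEq ι] {E K : Type} [Field E] [Finite E] [StarRing E] [Field K] [Finite K]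
  [StarRing K] [Algebra E K]

/-- the standard hermitian form -/
def hm {R : Type} [CommRing R] [StarRing R] {κ : Type} [Fintype κ] (v w : κ → R) : R := star v ⬝ᵥ w

theorem hm_mulVec {R : Type} [CommRing R] [StarRing R] {κ : Type} [Fintype κ] (M : Matrix κ κ R) (v w : κ → R) :
    hm (M *ᵥ v) w = hm v (star M *ᵥ w) := by
  rw [hm, hm, star_mulVec, ← dotProduct_mulVec]
  rfl

theorem star_hm {R : Type} [CommRing R] [StarRing R] {κ : Type} [Fintype κ] (v w : κ → R) :
    star (hm v w) = hm w v := by
  rw [hm, hm, Matrix.star_dotProduct, star_star, dotProduct_comm]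

theorem hm_add_left {R : Type} [CommRing R] [StarRing R] {κ : Type} [Fintype κ] (u v w : κ → R) :
    hm (u + v) w = hm u w + hm v w := by
  rw [hm, star_add, add_dotProduct]
  rfl

theorem hm_add_right {R : Type} [CommRing R] [StarRing R] {κ : Type} [Fintype κ] (u v w : κ → R) :
    hm u (v + w) = hm u v + hm u w := by
  rw [hm, dotProduct_add]
  rfl

theorem hm_smul_right {R : Type} [CommRing R] [StarRing R] {κ : Type} [Fintype κ] (e : R) (v w : κ → R) :
    hm v (e • w) = e * hm v w := by
  rw [hm, dotProduct_smul]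
  rfl

theorem eq_zero_of_hm {R : Type} [CommRing R] [StarRing R] {κ : Type} [Fintype κ] [DecidableEq κ] {v : κ → R}
    (h : ∀ w, hm v w = 0) : v = 0 := by
  have h1 : star v = 0 := by
    apply dotProduct_eq_zero
    intro w
    exact h w
  rw [← star_star v, h1, star_zero]

theorem trace_star (hs : ∀ e : E, star (algebraMap E K e) = algebraMap E K (star e)) (a : K) :
    Algebra.trace E K (star a) = star (Algebra.trace E K a) := by
  have h1 := Algebra.trace_eq_of_equiv_equiv (starRingAut (R := E)) (starRingAut (R := K)) (by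
    ext e
    exact (hs e).symm) a
  rw [h1]
  exact ((starRingAut (R := E)).apply_symm_apply _).symm

/-- the element representing a functional -/
noncomputable def rp (φ : Module.Dual E K) : K :=
  ((Algebra.traceForm E K).toDual (traceForm_nondegenerate E K)).symm φ

theorem trace_rp (φ : Module.Dual E K) (a : K) : Algebra.trace E K (rp φ * a) = φ a :=
  LinearMap.BilinForm.apply_toDual_symm_apply (hB := traceForm_nondegenerate E K) φ a

theorem trace_ext {c d : K} (h : ∀ a, Algebra.trace E K (c * a) = Algebra.trace E K (d * a)) : c = d := by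
  have h1 := (traceForm_nondegenerate E K).1 (c - d) (by
    intro a
    rw [Algebra.traceForm_apply, sub_mul, map_sub, h, sub_self])
  exact sub_eq_zero.1 h1

variable (f : K →ₐ[E] Matrix ι ι E)

/-- the functional `a ↦ h(v, a w)` -/
def fn (v w : ι → E) : Module.Dual E K where
  toFun a := hm v (f a *ᵥ w)
  map_add' a b := by rw [sm_add, hm_add_right]
  map_smul' e a := by
    rw [sm_smul, hm_smul_right]
    rfl

/-- the hermitian form over `K` -/
noncomputable def kf (v w : ι → E) : K := rp (fn f v w)

theorem trace_kf (v w : ι → E) (a : K) : Algebra.trace E K (kf f v w * a) = hm v (f a *ᵥ w) := trace_rp _ a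

theorem trace_kf_one (v w : ι → E) : Algebra.trace E K (kf f v w) = hm v w := by
  have := trace_kf f v w 1
  rwa [mul_one, sm_one] at this

theorem kf_add_left (u v w : ι → E) : kf f (u + v) w = kf f u w + kf f v w :=
  trace_ext (E := E) fun a => by rw [add_mul, map_add, trace_kf, trace_kf, trace_kf, hm_add_left]

theorem kf_add_right (u v w : ι → E) : kf f u (v + w) = kf f u v + kf f u w :=
  trace_ext (E := E) fun a => by rw [add_mul, map_add, trace_kf, trace_kf, trace_kf, mulVec_add, hm_add_right]

theorem kf_smul_right (k : K) (v w : ι → E) : kf f v (f k *ᵥ w) = k * kf f v w :=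
  trace_ext (E := E) fun a => by rw [trace_kf, mul_comm k, mul_assoc, trace_kf, ← sm_mul, mul_comm k]

theorem kf_smul_left (hf : ∀ k, f (star k) = star (f k)) (k : K) (v w : ι → E) :
    kf f (f k *ᵥ v) w = star k * kf f v w :=
  trace_ext (E := E) fun a => by
    rw [trace_kf, mul_comm (star k), mul_assoc, trace_kf, hm_mulVec, ← hf, ← sm_mul]

theorem star_kf (hs : ∀ e : E, star (algebraMap E K e) = algebraMap E K (star e))
    (hf : ∀ k, f (star k) = star (f k)) (v w : ι → E) : star (kf f v w) = kf f w v :=
  trace_ext (E := E) fun a => by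
    rw [trace_kf]
    have h1 : star (kf f v w) * a = star (kf f v w * star a) := by rw [star_mul', star_star]
    rw [h1, trace_star hs, trace_kf, star_hm, hm_mulVec, ← hf, star_star]

/-- the sesquilinear form over `K` on `VV f` -/
noncomputable def kform (hf : ∀ k, f (star k) = star (f k)) : VV f →ₛₗ[starRingEnd K] VV f →ₗ[K] K :=
  LinearMap.mk₂'ₛₗ (starRingEnd K) (RingHom.id K) (fun v w => kf f v w) (fun u v w => kf_add_left f u v w)
    (fun k v w => kf_smul_left f hf k v w) (fun u v w => kf_add_right f u v w) (fun k v w => kf_smul_right f k v w)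

theorem kform_apply (hf : ∀ k, f (star k) = star (f k)) (v w : VV f) : kform f hf v w = kf f v w := rfl

/-- an isometry between `K ^ m` and `ι → E` with the trace form -/
theorem exists_isometry (hs : ∀ e : E, star (algebraMap E K e) = algebraMap E K (star e))
    (hf : ∀ k, f (star k) = star (f k)) (hne : ∃ e : E, star e ≠ e) :
    ∃ (m : ℕ) (T : (Fin m → K) ≃ₗ[E] (ι → E)), Fintype.card ι = Module.finrank E K * m ∧
      (∀ (k : K) (a : Fin m → K), T (k • a) = f k *ᵥ T a) ∧
      ∀ a b : Fin m → K, hm (T a) (T b) = Algebra.trace E K (hm a b) := by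
  have hσ : starRingEnd K ≠ RingHom.id K := by
    intro h
    obtain ⟨e, he⟩ := hne
    apply he
    have h1 : star (algebraMap E K e) = algebraMap E K e := congrArg (fun g : K →+* K => g (algebraMap E K e)) h
    rw [hs] at h1
    exact (algebraMap E K).injective h1
  have : FiniteDimensional K (VV f) := Module.Finite.of_finite
  obtain ⟨b, hb⟩ := Cfsg.Agent.ClassicalGeometry.HermOrthonormal.exists_orthonormal_basis hσ
    (fun a => star_star a) (kform f hf) ⟨fun v w => star_kf f hs hf v w⟩ (by
      intro v hv
      have key : ∀ v : ι → E, (∀ w : ι → E, kf f v w = 0) → v = 0 := fun v h => eq_zero_of_hm fun w => by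
        rw [← trace_kf_one f, h, map_zero]
      exact key v hv)
  refine ⟨Module.finrank K (VV f), (b.equivFun.symm.restrictScalars E : (Fin _ → K) ≃ₗ[E] VV f), ?_, ?_, ?_⟩
  · rw [Module.finrank_mul_finrank E K (VV f)]
    exact (Module.finrank_fintype_fun_eq_card E).symm
  · intro k a
    exact map_smul b.equivFun.symm k a
  · intro a c
    rw [← trace_kf_one f]
    congr 1
    have h1 : kf f (b.equivFun.symm a) (b.equivFun.symm c) =
        kform f hf (b.equivFun.symm a) (b.equivFun.symm c) := rfl
    refine h1.trans ?_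
    rw [Module.Basis.equivFun_symm_apply, Module.Basis.equivFun_symm_apply]
    simp only [map_sum, LinearMap.sum_apply, map_smulₛₗ, LinearMap.smul_apply, hb, smul_eq_mul, RingHom.id_apply,
      mul_ite, mul_one, mul_zero, Finset.sum_ite_eq', Finset.mem_univ, if_true]
    exact Finset.sum_congr rfl fun i _ => mul_comm _ _

theorem hm_ext {κ : Type} [Fintype κ] [DecidableEq κ] {u v : κ → E} (h : ∀ w, hm u w = hm v w) : u = v := by
  have h1 : u - v = 0 := eq_zero_of_hm fun w => by
    have h2 := hm_add_left (u - v) v w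
    rw [sub_add_cancel, h w] at h2
    exact left_eq_add.1 (by rw [add_comm]; exact h2)
  exact sub_eq_zero.1 h1

/-- the centralizer of the image of `f` is a matrix algebra over `K` -/
theorem core (hs : ∀ e : E, star (algebraMap E K e) = algebraMap E K (star e))
    (hf : ∀ k, f (star k) = star (f k)) (hne : ∃ e : E, star e ≠ e) :
    ∃ (m : ℕ) (φ : Matrix (Fin m) (Fin m) K →+* Matrix ι ι E), Fintype.card ι = Module.finrank E K * m ∧
      Function.Injective φ ∧ (∀ a, φ (star a) = star (φ a)) ∧
      (∀ b, b ∈ Set.range φ ↔ ∀ k, b * f k = f k * b) ∧ (∀ P, (φ P).det = Algebra.norm E P.det) ∧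
      ∀ k : K, φ (k • (1 : Matrix (Fin m) (Fin m) K)) = f k := by
  obtain ⟨m, T, hm1, hT, hT2⟩ := exists_isometry f hs hf hne
  refine ⟨m, Phi T, hm1, Phi_injective T, ?_, ?_, Phi_det T, ?_⟩
  · intro P
    refine eq_of_T T fun b => hm_ext fun w => ?_
    obtain ⟨a, rfl⟩ := T.surjective w
    rw [Phi_mulVec, hT2, hm_mulVec, star_star, hm_mulVec, star_star, Phi_mulVec, hT2]
  · intro b
    constructor
    · rintro ⟨P, rfl⟩ k
      refine eq_of_T T fun a => ?_
      rw [← mulVec_mulVec, ← mulVec_mulVec, ← hT, Phi_mulVec, Phi_mulVec, mulVec_smul, hT]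
    · intro hb
      let L : (Fin m → K) →ₗ[K] (Fin m → K) := 
        { toFun := fun a => T.symm (b *ᵥ T a)
          map_add' := fun a c => by rw [map_add, mulVec_add, map_add]
          map_smul' := fun k a => by
            apply T.injective
            rw [T.apply_symm_apply, hT, mulVec_mulVec, hb, ← mulVec_mulVec, RingHom.id_apply, hT, T.apply_symm_apply] }
      refine ⟨LinearMap.toMatrix' L, eq_of_T T fun a => ?_⟩
      rw [Phi_mulVec, LinearMap.toMatrix'_mulVec]
      exact T.apply_symm_apply _
  · intro k
    refine eq_of_T T fun a => ?_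
    rw [Phi_mulVec, smul_mulVec, one_mulVec, hT]

end form

end Cfsg.Agent.H261.CA
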