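import Cfsg.Agent.H261.CA.Core

/-!
# S3852, CA5 (EX-uni): the centralizer of an exotic element of a unitary group (helper261)
-/

set_option autoImplicit false
set_option linter.unusedSectionVars false

namespace Cfsg.Agent.H261.CA

open Matrix Cfsg.Agent.H308.CA Polynomial

/-- `l` is not an `r`-th power of any element -/
theorem not_pow {E : Type} [Field E] [StarRing E] {r : ℕ} (hr : Odd r) {l : E} (hl : star l * l = 1)
    (h : ∀ m : E, star m * m = 1 → m ^ r ≠ l) (m : E) : m ^ r ≠ l := by
  intro hm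
  obtain ⟨k, rfl⟩ := hr
  have h1 : star m ^ (2 * k + 1) = star l := by rw [← star_pow, hm]
  refine h (m ^ (k + 1) * star m ^ k) ?_ ?_
  · rw [star_mul', star_pow, star_pow, star_star]
    calc star m ^ (k + 1) * m ^ k * (m ^ (k + 1) * star m ^ k) = star m ^ (2 * k + 1) * m ^ (2 * k + 1) := by ring
      _ = 1 := by rw [h1, hm, hl]
  · calc (m ^ (k + 1) * star m ^ k) ^ (2 * k + 1) = (m ^ (2 * k + 1)) ^ (k + 1) * (star m ^ (2 * k + 1)) ^ k := by ring
      _ = l * (star l * l) ^ k := by rw [h1, hm]; ring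
      _ = l := by rw [hl, one_pow, mul_one]

section abs

variable {ι : Type} [Fintype ι] [DecidableEq ι] {E K : Type} [Field E] [Finite E] [StarRing E] [Field K] [Finite K]
  [StarRing K] [Algebra E K]

theorem abs_uni (hs : ∀ e : E, star (algebraMap E K e) = algebraMap E K (star e)) (hne : ∃ e : E, star e ≠ e)
    {r : ℕ} (hr : r.Prime) {x : SU ι E} {l : E} (hl : star l * l = 1)
    (hlr : ∀ m : E, star m * m = 1 → m ^ r ≠ l) {ρ : K} (f : K →ₐ[E] Matrix ι ι E) (hfρ : f ρ = mt x)
    (hgen : Algebra.adjoin E {ρ} = ⊤) (hN : Algebra.norm E ρ = l) (hd : Module.finrank E K = r)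
    (hρ : star ρ * ρ = 1) :
      ∃ (m : ℕ) (E' : Type) (i : CommRing E') (s : StarRing E') (φ : Matrix (Fin m) (Fin m) E' →+* Matrix ι ι E),
        Good E' i s ∧ Fintype.card ι = r * m ∧ r ∣ m ∧ Function.Injective φ ∧ (∀ a, φ (star a) = star (φ a)) ∧
        (∀ b, b ∈ Set.range φ ↔ b * mt x = mt x * b) ∧ (∀ u : SU (Fin m) E', (φ (mt u)).det = 1) ∧
        (∀ p : ℕ, CharP E p → CharP E' p) := by
  have hfstar : ∀ k, f (star k) = star (f k) := by
    intro k
    have hk : k ∈ Algebra.adjoin E {ρ} := by rw [hgen]; trivial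
    induction hk using Algebra.adjoin_induction with
    | mem y hy =>
      rw [Set.mem_singleton_iff.1 hy, hfρ]
      have h1 : f (star ρ) * mt x = 1 := by rw [← hfρ, ← map_mul, hρ, map_one]
      calc f (star ρ) = f (star ρ) * (mt x * star (mt x)) := by rw [mt_mul_star, mul_one]
        _ = star (mt x) := by rw [← mul_assoc, h1, one_mul]
    | algebraMap e =>
      rw [hs, AlgHom.commutes, AlgHom.commutes, Matrix.algebraMap_eq_diagonal, Matrix.algebraMap_eq_diagonal,
        Matrix.star_eq_conjTranspose, Matrix.diagonal_conjTranspose]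
      rfl
    | add a b _ _ ha hb => rw [star_add, map_add, map_add, star_add, ha, hb]
    | mul a b _ _ ha hb => rw [star_mul, map_mul, map_mul, star_mul, ha, hb]
  obtain ⟨m, φ, h1, h2, h3, h4, h5, h6⟩ := core f hs hfstar hne
  refine ⟨m, K, inferInstance, inferInstance, φ, Good.uni K _ _ inferInstance ?_, ?_, ?_, h2, h3, ?_, ?_, ?_⟩
  · obtain ⟨e, he⟩ := hne
    refine ⟨algebraMap E K e, fun h => he ?_⟩
    rw [hs] at h
    exact (algebraMap E K).injective h
  · rw [h1, hd]
  · by_contra hrm
    have hcop : Nat.Coprime r m := (Nat.Prime.coprime_iff_not_dvd hr).2 hrm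
    have h7 : l ^ m = 1 := by
      have h8 := h5 (ρ • (1 : Matrix (Fin m) (Fin m) K))
      rw [h6, hfρ, mt_det, Matrix.det_smul, Matrix.det_one, mul_one, Fintype.card_fin, map_pow, hN] at h8
      exact h8.symm
    by_cases hm1 : m ≤ 1
    · have hm0 : m ≠ 0 := by
        rintro rfl
        exact hrm (dvd_zero r)
      have hm2 : m = 1 := by omega
      rw [hm2, pow_one] at h7
      exact hlr 1 (by rw [star_one, one_mul]) (by rw [one_pow, h7])
    · obtain ⟨a, -, ha⟩ := Nat.exists_mul_mod_eq_one_of_coprime hcop (by omega)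
      refine hlr (l ^ a) (by rw [star_pow, ← mul_pow, hl, one_pow]) ?_
      rw [← pow_mul, mul_comm a r]
      have h8 := Nat.div_add_mod (r * a) m
      rw [ha] at h8
      rw [← h8, pow_add, pow_mul, h7, one_pow, one_mul, pow_one]
  · intro b
    rw [h4]
    constructor
    · intro h
      have := h ρ
      rwa [hfρ] at this
    · intro h k
      have hk : k ∈ Algebra.adjoin E {ρ} := by rw [hgen]; trivial
      induction hk using Algebra.adjoin_induction with
      | mem y hy => rw [Set.mem_singleton_iff.1 hy, hfρ, h]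
      | algebraMap e => rw [AlgHom.commutes]; exact (Algebra.commutes e b).symm
      | add a b _ _ ha hb => rw [map_add, mul_add, add_mul, ha, hb]
      | mul a b _ _ ha hb => rw [map_mul, ← mul_assoc, ha, mul_assoc, hb, mul_assoc]
  · intro u
    rw [h5, mt_det, map_one]
  · intro p hp
    exact charP_of_injective_algebraMap (algebraMap E K).injective p

end abs

/-- **EX-uni** -/
theorem ex_uni (E : Type) [Field E] [Finite E] [StarRing E] (hs : ∃ a : E, star a ≠ a) : EXSt E := by
  intro ι _ _ r hr hr2 _ x l hl hx hlr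
  have hodd : Odd r := hr.odd_of_ne_two hr2
  set P : E[X] := X ^ r - C l with hP
  have hirr : Irreducible P := X_pow_sub_C_irreducible_of_prime hr (not_pow hodd hl hlr)
  have hmon : P.Monic := monic_X_pow_sub_C l hr.ne_zero
  have hfact : Fact (Irreducible P) := ⟨hirr⟩
  have hfin : Module.Finite E (AdjoinRoot P) := hmon.finite_adjoinRoot
  have hfinK : Finite (AdjoinRoot P) := Module.finite_of_finite E
  have hev : ∀ {S : Type} [CommRing S] (i : E →+* S) (y : S), eval₂ i y P = y ^ r - i l := by
    intro S _ i y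
    rw [hP, eval₂_sub, eval₂_X_pow, eval₂_C]
  have hroot : AdjoinRoot.root P ^ r = AdjoinRoot.of P l := by
    have h1 := AdjoinRoot.eval₂_root P
    rw [hev] at h1
    exact sub_eq_zero.1 h1
  have hroot0 : AdjoinRoot.root P ≠ 0 := by
    intro h0
    rw [h0, zero_pow hr.ne_zero] at hroot
    have h1 : l = 0 := (AdjoinRoot.of P).injective (by rw [← hroot, map_zero])
    rw [h1, mul_zero] at hl
    exact zero_ne_one hl
  let σ : AdjoinRoot P →+* AdjoinRoot P := AdjoinRoot.lift ((AdjoinRoot.of P).comp (starRingEnd E))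
    (AdjoinRoot.root P)⁻¹ (by
      rw [hev, inv_pow, hroot, sub_eq_zero]
      apply inv_eq_of_mul_eq_one_left
      rw [RingHom.comp_apply, ← map_mul]
      show AdjoinRoot.of P (star l * l) = 1
      rw [hl, map_one])
  have hσof : ∀ e : E, σ (AdjoinRoot.of P e) = AdjoinRoot.of P (star e) := fun e => AdjoinRoot.lift_of _
  have hσroot : σ (AdjoinRoot.root P) = (AdjoinRoot.root P)⁻¹ := AdjoinRoot.lift_root _
  have hσσ : ∀ k, σ (σ k) = k := by
    have h1 : σ.comp σ = RingHom.id _ := AdjoinRoot.ringHom_ext (by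
      ext e
      rw [RingHom.comp_apply, RingHom.comp_apply, hσof, hσof, star_star]
      rfl) (by
      rw [RingHom.comp_apply, hσroot, map_inv₀, hσroot, inv_inv]
      rfl)
    exact fun k => congrArg (fun g : AdjoinRoot P →+* AdjoinRoot P => g k) h1
  let _ : StarRing (AdjoinRoot P) := 
    { star := σ
      star_involutive := hσσ
      star_mul := fun a b => by
        show σ (a * b) = σ b * σ a
        rw [map_mul, mul_comm]
      star_add := fun a b => map_add σ a b }
  have hstar : ∀ k : AdjoinRoot P, star k = σ k := fun _ => rfl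
  let g : E[X] →ₐ[E] Matrix ι ι E := aeval (mt x)
  have hg : g P = 0 := by
    show aeval (mt x) P = 0
    rw [hP, map_sub, aeval_X_pow, aeval_C, hx, Algebra.algebraMap_eq_smul_one, sub_self]
  let f : AdjoinRoot P →ₐ[E] Matrix ι ι E := Ideal.Quotient.liftₐ (Ideal.span {P}) g (by
    intro a ha
    obtain ⟨b, rfl⟩ := Ideal.mem_span_singleton.1 ha
    rw [map_mul, hg, zero_mul])
  have hf : f (AdjoinRoot.root P) = mt x := by
    show g X = mt x
    exact aeval_X _
  refine abs_uni (K := AdjoinRoot P) ?_ hs hr hl hlr f hf (AdjoinRoot.adjoinRoot_eq_top) ?_ ?_ ?_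
  · intro e
    rw [hstar]
    exact hσof e
  · have h1 := Algebra.PowerBasis.norm_gen_eq_coeff_zero_minpoly (AdjoinRoot.powerBasis hirr.ne_zero)
    rw [AdjoinRoot.powerBasis_gen, AdjoinRoot.minpoly_root hirr.ne_zero, AdjoinRoot.powerBasis_dim, hmon.leadingCoeff,
      inv_one, C_1, mul_one] at h1
    rw [h1, hP, natDegree_X_pow_sub_C, coeff_sub, coeff_X_pow, if_neg hr.ne_zero.symm, coeff_C_zero, zero_sub,
      hodd.neg_one_pow, neg_one_mul, neg_neg]
  · rw [(AdjoinRoot.powerBasis hirr.ne_zero).finrank, AdjoinRoot.powerBasis_dim, hP, natDegree_X_pow_sub_C]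
  · rw [hstar, hσroot, inv_mul_cancel₀ hroot0]

end Cfsg.Agent.H261.CA
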